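import Mathlib

/-!
Automorphisms of an elementary abelian group of order `p ^ 2`.
-/

set_option autoImplicit false

namespace Cfsg.Agent.LAE79

/-- Automorphisms of a plane over `ZMod p`. -/
theorem card_plane_aut {M : Type*} [AddCommGroup M] {p : ℕ} [hp : Fact p.Prime] [Module (ZMod p) M] [Finite M]
    (hcard : Nat.card M = p ^ 2) {A : Type*} [Group A] (act : A →* AddMonoid.End M)
    (hinj : Function.Injective act) : Nat.card A ∣ (p ^ 2 - 1) * (p ^ 2 - p) := by
  have hfin : Module.Finite (ZMod p) M := Module.Finite.of_finite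
  have hfr : Module.finrank (ZMod p) M = 2 := by
    have h := hcard
    rw [Module.natCard_eq_pow_finrank (K := ZMod p), Nat.card_zmod] at h
    exact Nat.pow_right_injective hp.1.two_le h
  let b : Module.Basis (Fin 2) (ZMod p) M := Module.finBasisOfFinrankEq (ZMod p) M hfr
  let L : A →* (M →ₗ[ZMod p] M) :=
    { toFun := fun a =>
        { toFun := fun x => act a x
          map_add' := fun x y => map_add (act a) x y
          map_smul' := fun c x => ZMod.map_smul (act a) c x }
      map_one' := LinearMap.ext fun x => (congrArg (fun r : AddMonoid.End M => r x) (map_one act) :)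
      map_mul' := fun a a' => LinearMap.ext fun x =>
        (congrArg (fun r : AddMonoid.End M => r x) (map_mul act a a') :) }
  let R : A →* GL (Fin 2) (ZMod p) :=
    MonoidHom.toHomUnits ((MonoidHomClass.toMonoidHom (LinearMap.toMatrixAlgEquiv b)).comp L)
  have hR : Function.Injective R := fun a a' h => by
    have h1 : L a = L a' := (LinearMap.toMatrixAlgEquiv b).injective (congrArg Units.val h)
    exact hinj (AddMonoidHom.ext fun x => LinearMap.congr_fun h1 x)
  have h2 := Subgroup.card_dvd_of_injective R hR
  rw [Matrix.card_GL_field, Fin.prod_univ_two] at h2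
  simpa using h2

/-- `|Aut(Y)|` divides `(p ^ 2 - 1)(p ^ 2 - p)` for an elementary abelian group of order `p ^ 2`. -/
theorem card_mulAut_dvd {G : Type*} [Group G] [Finite G] {p : ℕ} [hp : Fact p.Prime] (Y : Subgroup G)
    (hc : ∀ a ∈ Y, ∀ b ∈ Y, a * b = b * a) (hexp : ∀ a ∈ Y, a ^ p = 1) (hcard : Nat.card Y = p ^ 2) :
    Nat.card (MulAut Y) ∣ (p ^ 2 - 1) * (p ^ 2 - p) := by
  letI : CommGroup ↥Y :=
    { (inferInstance : Group ↥Y) with mul_comm := fun a b => Subtype.ext (hc a a.2 b b.2) }
  letI : Module (ZMod p) (Additive ↥Y) := AddCommGroup.zmodModule fun x => by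
    show Additive.ofMul (x.toMul ^ p) = Additive.ofMul 1
    exact congrArg Additive.ofMul (Subtype.ext (by simpa using hexp _ x.toMul.2))
  let act : MulAut ↥Y →* AddMonoid.End (Additive ↥Y) :=
    { toFun := fun e => MonoidHom.toAdditive e.toMonoidHom
      map_one' := AddMonoidHom.ext fun _ => rfl
      map_mul' := fun e e' => AddMonoidHom.ext fun _ => rfl }
  exact card_plane_aut (M := Additive ↥Y) hcard act fun e e' h => MulEquiv.ext fun y =>
    congrArg (fun r : AddMonoid.End (Additive ↥Y) => (r (Additive.ofMul y)).toMul) h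

end Cfsg.Agent.LAE79
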