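import Mathlib
import Cfsg.Agent.LocalP.Basic
import Cfsg.Agent.LocalEven.CoprimeLemmas

/-!
General lemmas for blocks: groups acting on an abelian section commuting with an irreducible action, automorphisms
of sections of order `p ^ 2`, and coprime stabilisers.
-/

set_option autoImplicit false

open Subgroup
open scoped commutatorElement

namespace Cfsg.Agent.LAE79

section Schur

variable {M : Type*} [AddCommGroup M]

/-- The endomorphisms commuting with a family. -/
def commRing {ι : Type*} (a : ι → AddMonoid.End M) : Subring (AddMonoid.End M) :=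
  Subring.centralizer (Set.range a)

theorem commRing_comm {ι : Type*} [Finite M] {a : ι → AddMonoid.End M}
    (irr : ∀ S : AddSubgroup M, (∀ i, ∀ x ∈ S, a i x ∈ S) → S = ⊥ ∨ S = ⊤) :
    (∀ c ∈ commRing a, c ≠ 0 → Function.Injective c) ∧
      ∀ c ∈ commRing a, ∀ d ∈ commRing a, c * d = d * c := by
  have hinj : ∀ c ∈ commRing a, c ≠ 0 → Function.Injective c := fun c hc hc0 => by
    rcases irr (c : M →+ M).ker (fun i x hx => by
      have h := congrArg (fun r : AddMonoid.End M => r x) (Subring.mem_centralizer_iff.1 hc (a i) ⟨i, rfl⟩)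
      change a i (c x) = c (a i x) at h
      have hx' : c x = 0 := hx
      show c (a i x) = 0
      rw [← h, hx', map_zero]) with h | h
    · exact (AddMonoidHom.ker_eq_bot_iff _).1 h
    · exact absurd (AddMonoidHom.ext fun x => show c x = 0 from
        AddMonoidHom.mem_ker.1 (show x ∈ (c : M →+ M).ker from h ▸ AddSubgroup.mem_top x)) hc0
  refine ⟨hinj, fun c hc d hd => ?_⟩
  rcases subsingleton_or_nontrivial M with hM | hM
  · exact AddMonoidHom.ext fun x => Subsingleton.elim _ _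
  haveI : Finite (AddMonoid.End M) :=
    Finite.of_injective (fun f : AddMonoid.End M => (f : M → M)) DFunLike.coe_injective
  haveI : NoZeroDivisors (commRing a) := ⟨fun {x y} hxy => by
    by_contra h
    push Not at h
    refine h.2 (Subtype.ext (AddMonoidHom.ext fun m => hinj x x.2 (fun e => h.1 (Subtype.ext e)) ?_))
    exact (congrArg (fun r : AddMonoid.End M => r m) (congrArg Subtype.val hxy)).trans (map_zero _).symm⟩
  haveI : Nontrivial (commRing a) := ⟨0, 1, fun h => by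
    obtain ⟨m, hm⟩ := exists_ne (0 : M)
    exact hm (congrArg (fun r : AddMonoid.End M => r m) (congrArg Subtype.val h)).symm⟩
  haveI : IsDomain (commRing a) := NoZeroDivisors.to_isDomain _
  exact congrArg Subtype.val ((Finite.isDomain_to_isField (commRing a)).mul_comm ⟨c, hc⟩ ⟨d, hd⟩)

/-- If the action is nonabelian and `|M| = p ^ 2`, what commutes with it is a multiple of the identity. -/
theorem commRing_scalar {ι : Type*} [Finite M] {a : ι → AddMonoid.End M} {p : ℕ} [hp : Fact p.Prime]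
    (hM : Nat.card M = p ^ 2)
    (irr : ∀ S : AddSubgroup M, (∀ i, ∀ x ∈ S, a i x ∈ S) → S = ⊥ ∨ S = ⊤)
    {i j : ι} (hij : a i * a j ≠ a j * a i) (hexp : ∀ x : M, p • x = 0)
    {c : AddMonoid.End M} (hc : c ∈ commRing a) : ∃ k : ℕ, ∀ x, c x = k • x := by
  obtain ⟨hinj, hcomm⟩ := commRing_comm irr
  obtain ⟨m, hm⟩ : ∃ m : M, a i (a j m) ≠ a j (a i m) := by
    by_contra h
    push Not at h
    exact hij (AddMonoidHom.ext h)
  have hm0 : m ≠ 0 := fun h => hm (by rw [h]; simp)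
  let ev : commRing a →+ M := AddMonoidHom.mk' (fun r => (r : AddMonoid.End M) m) fun _ _ => rfl
  have hev : Function.Injective ev := (injective_iff_map_eq_zero ev).2 fun r hr => by
    by_contra h
    exact hm0 (hinj r r.2 (fun e => h (Subtype.ext e)) ((show (r : AddMonoid.End M) m = 0 from hr).trans
      (map_zero _).symm))
  have hns : ev.range ≠ ⊤ := by
    intro h
    have hall : ∀ x, ∃ r ∈ commRing a, r m = x := fun x => by
      obtain ⟨r, hr⟩ := (h ▸ AddSubgroup.mem_top x : x ∈ ev.range); exact ⟨r, r.2, hr⟩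
    obtain ⟨r, hr, hri⟩ := hall (a i m)
    obtain ⟨s, hs, hsj⟩ := hall (a j m)
    refine hm ?_
    have e1 := congrArg (fun q : AddMonoid.End M => q m) (Subring.mem_centralizer_iff.1 hr (a j) ⟨j, rfl⟩)
    have e2 := congrArg (fun q : AddMonoid.End M => q m) (Subring.mem_centralizer_iff.1 hs (a i) ⟨i, rfl⟩)
    have e3 := congrArg (fun q : AddMonoid.End M => q m) (hcomm r hr s hs)
    change a j (r m) = r (a j m) at e1
    change a i (s m) = s (a i m) at e2
    change r (s m) = s (r m) at e3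
    rw [← hsj, e2, ← hri, ← e3, e1, ← hsj]
  have hcard : Nat.card (commRing a) = p := by
    have h1 : Nat.card ev.range = Nat.card (commRing a) :=
      Nat.card_congr (AddMonoidHom.ofInjective hev).toEquiv.symm
    have h2 := ev.range.card_addSubgroup_dvd_card
    rw [hM, h1, Nat.dvd_prime_pow hp.1] at h2
    obtain ⟨k, hk, hk'⟩ := h2
    interval_cases k
    · exfalso
      haveI := (Nat.card_eq_one_iff_unique.1 (by simpa using hk')).1
      exact hm0 (congrArg (fun r : commRing a => (r : AddMonoid.End M) m) (Subsingleton.elim (1 : commRing a) 0))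
    · simpa using hk'
    · exact absurd (AddSubgroup.eq_top_of_card_eq _ (by rw [h1, hk', hM])) hns
  have hone : addOrderOf (1 : commRing a) = p := by
    refine addOrderOf_eq_prime (Subtype.ext (AddMonoidHom.ext fun x => ?_)) fun h => hm0
      (congrArg (fun r : commRing a => (r : AddMonoid.End M) m) h)
    show ((p • (1 : AddMonoid.End M)) : AddMonoid.End M) x = 0
    exact hexp x
  haveI : Finite (AddMonoid.End M) :=
    Finite.of_injective (fun f : AddMonoid.End M => (f : M → M)) DFunLike.coe_injective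
  have htop : AddSubgroup.zmultiples (1 : commRing a) = ⊤ :=
    AddSubgroup.eq_top_of_card_eq _ (by rw [Nat.card_zmultiples, hone, hcard])
  have hmem : (⟨c, hc⟩ : commRing a) ∈ AddSubmonoid.multiples (1 : commRing a) := by
    refine mem_multiples_iff_mem_zmultiples.2 ?_; rw [htop]; trivial
  obtain ⟨k, hk⟩ := hmem
  exact ⟨k, fun x => (congrArg (fun r : commRing a => (r : AddMonoid.End M) x) hk).symm⟩

end Schur

variable {G : Type*} [Group G]

theorem comm_eq_one_iff_conj {g u : G} : ⁅g, u⁆ = 1 ↔ g * u * g⁻¹ = u := by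
  rw [commutatorElement_def, mul_inv_eq_one]

/-- The elements stabilising both terms of a section. -/
abbrev SecNorm (U U₀ : Subgroup G) : Subgroup G := normalizer (U : Set G) ⊓ normalizer (U₀ : Set G)

/-- An action commuting with an irreducible one on an abelian section is abelian, and scalar for order `p ^ 2`
when the irreducible one is nonabelian. -/
theorem section_comm [Finite G] {U U₀ H K : Subgroup G} (hle : U₀ ≤ U) (hU : ∀ x ∈ U, ∀ y ∈ U, ⁅x, y⁆ ∈ U₀)
    (hH : H ≤ SecNorm U U₀) (hK : K ≤ SecNorm U U₀)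
    (irr : ∀ N ≤ U, H ≤ normalizer (N : Set G) → ¬ N ≤ U₀ → ∀ u ∈ U, ∃ n ∈ N, n⁻¹ * u ∈ U₀)
    (hc : ∀ h ∈ H, ∀ k ∈ K, ∀ u ∈ U, ⁅⁅h, k⁆, u⁆ ∈ U₀) :
    (∀ k ∈ K, ∀ k' ∈ K, ∀ u ∈ U, ⁅⁅k, k'⁆, u⁆ ∈ U₀) ∧
      ∀ (p : ℕ) [Fact p.Prime], U₀.relIndex U = p ^ 2 → (∀ u ∈ U, u ^ p ∈ U₀) →
        (∃ h ∈ H, ∃ h' ∈ H, ∃ u ∈ U, ⁅⁅h, h'⁆, u⁆ ∉ U₀) →
          ∀ k ∈ K, ∃ i : ℕ, ∀ u ∈ U, (u ^ i)⁻¹ * (k * u * k⁻¹) ∈ U₀ := by
  have hnor : (U₀.subgroupOf U).Normal := ⟨fun n hn g => by
    rw [mem_subgroupOf] at hn ⊢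
    show (g : G) * n * (g : G)⁻¹ ∈ U₀
    rw [show (g : G) * n * (g : G)⁻¹ = ⁅(g : G), (n : G)⁆ * n by simp only [commutatorElement_def]; group]
    exact U₀.mul_mem (hU g g.2 n n.2) hn⟩
  let mk : ↥U → ↥U ⧸ U₀.subgroupOf U := QuotientGroup.mk
  have mk_eq : ∀ {u v : ↥U}, mk u = mk v ↔ ((u : G))⁻¹ * (v : G) ∈ U₀ := fun {u v} => by
    rw [QuotientGroup.eq]; exact mem_subgroupOf
  letI : CommGroup (↥U ⧸ U₀.subgroupOf U) :=
    { (inferInstance : Group (↥U ⧸ U₀.subgroupOf U)) with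
      mul_comm := fun a b => by
        obtain ⟨x, rfl⟩ := QuotientGroup.mk_surjective a
        obtain ⟨y, rfl⟩ := QuotientGroup.mk_surjective b
        show mk (x * y) = mk (y * x)
        rw [mk_eq]
        have := hU _ (U.inv_mem y.2) _ (U.inv_mem x.2)
        simpa [commutatorElement_def, mul_assoc] using this }
  have hconj : ∀ g ∈ SecNorm U U₀, ∀ u : ↥U, g * (u : G) * g⁻¹ ∈ U := fun g hg u =>
    (mem_normalizer_iff.1 hg.1 _).1 u.2
  let a : ↥(SecNorm U U₀) →* AddMonoid.End (Additive (↥U ⧸ U₀.subgroupOf U)) :=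
    { toFun := fun g => MonoidHom.toAdditive (QuotientGroup.map (U₀.subgroupOf U) (U₀.subgroupOf U)
        (MonoidHom.mk' (fun u => ⟨_, hconj g g.2 u⟩) fun u v => Subtype.ext (by
          show (g : G) * ((u : G) * v) * (g : G)⁻¹ = ((g : G) * u * (g : G)⁻¹) * ((g : G) * v * (g : G)⁻¹)
          group)) fun u hu => by
          rw [mem_comap, mem_subgroupOf]
          exact (mem_normalizer_iff.1 g.2.2 _).1 hu)
      map_one' := AddMonoidHom.ext fun q => by
        obtain ⟨u, rfl⟩ := QuotientGroup.mk_surjective q.toMul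
        show Additive.ofMul (mk _) = _
        exact congrArg Additive.ofMul (congrArg mk (Subtype.ext (by simp)))
      map_mul' := fun g g' => AddMonoidHom.ext fun q => by
        obtain ⟨u, rfl⟩ := QuotientGroup.mk_surjective q.toMul
        show Additive.ofMul (mk _) = Additive.ofMul (mk _)
        refine congrArg Additive.ofMul (congrArg mk (Subtype.ext ?_))
        show ((g : G) * g') * (u : G) * ((g : G) * g')⁻¹ = (g : G) * ((g' : G) * u * (g' : G)⁻¹) * (g : G)⁻¹
        group }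
  have happ : ∀ (g : ↥(SecNorm U U₀)) (u : ↥U),
      a g (Additive.ofMul (mk u)) = Additive.ofMul (mk ⟨_, hconj g g.2 u⟩) := fun _ _ => rfl
  have heq : ∀ g g' : ↥(SecNorm U U₀), (∀ u ∈ U, ⁅⁅(g : G), (g' : G)⁆, u⁆ ∈ U₀) ↔ a g * a g' = a g' * a g := by
    intro g g'
    constructor
    · intro h
      refine AddMonoidHom.ext fun q => ?_
      obtain ⟨u, rfl⟩ := QuotientGroup.mk_surjective q.toMul
      show Additive.ofMul (mk _) = Additive.ofMul (mk _)
      refine congrArg Additive.ofMul (mk_eq.2 ?_)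
      have hgg : (g' : G) * (g : G) ∈ normalizer (U : Set G) := mul_mem g'.2.1 g.2.1
      have h1 := h _ ((mem_normalizer_iff.1 hgg _).1 (U.inv_mem u.2))
      show ((g : G) * ((g' : G) * u * (g' : G)⁻¹) * (g : G)⁻¹)⁻¹ *
        ((g' : G) * ((g : G) * u * (g : G)⁻¹) * (g' : G)⁻¹) ∈ U₀
      simpa [commutatorElement_def, mul_assoc] using h1
    · intro h u hu
      have hgg : ((g' : G) * (g : G))⁻¹ ∈ normalizer (U : Set G) := inv_mem (mul_mem g'.2.1 g.2.1)
      set v : ↥U := ⟨_, (mem_normalizer_iff.1 hgg _).1 (U.inv_mem hu)⟩ with hv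
      have h1 := mk_eq.1 (congrArg Additive.toMul
        (congrArg (fun r : AddMonoid.End _ => r (Additive.ofMul (mk v))) h))
      change ((g : G) * ((g' : G) * v * (g' : G)⁻¹) * (g : G)⁻¹)⁻¹ *
        ((g' : G) * ((g : G) * v * (g : G)⁻¹) * (g' : G)⁻¹) ∈ U₀ at h1
      simpa [hv, commutatorElement_def, mul_assoc] using h1
  let aH : ↥H → AddMonoid.End (Additive (↥U ⧸ U₀.subgroupOf U)) := fun h => a ⟨h, hH h.2⟩
  have hirr : ∀ S : AddSubgroup (Additive (↥U ⧸ U₀.subgroupOf U)),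
      (∀ i, ∀ x ∈ S, aH i x ∈ S) → S = ⊥ ∨ S = ⊤ := by
    intro S hS
    let N : Subgroup G :=
      { carrier := {x | ∃ hx : x ∈ U, Additive.ofMul (mk ⟨x, hx⟩) ∈ S}
        one_mem' := ⟨U.one_mem, S.zero_mem⟩
        mul_mem' := by rintro x y ⟨hx, hx'⟩ ⟨hy, hy'⟩; exact ⟨U.mul_mem hx hy, S.add_mem hx' hy'⟩
        inv_mem' := by rintro x ⟨hx, hx'⟩; exact ⟨U.inv_mem hx, S.neg_mem hx'⟩ }
    have hNH : H ≤ normalizer (N : Set G) := le_normalizer_iff.2 fun h hh x ⟨hx, hx'⟩ =>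
      ⟨hconj h (hH hh) ⟨x, hx⟩, hS ⟨h, hh⟩ _ hx'⟩
    by_cases hN : N ≤ U₀
    · refine Or.inl (eq_bot_iff.2 fun q hq => ?_)
      obtain ⟨u, rfl⟩ := QuotientGroup.mk_surjective q.toMul
      have : (u : G) ∈ U₀ := hN ⟨u.2, hq⟩
      refine AddSubgroup.mem_bot.2 ?_
      exact congrArg Additive.ofMul ((mk_eq (u := u) (v := 1)).2 (by simpa using this))
    · refine Or.inr (eq_top_iff.2 fun q _ => ?_)
      obtain ⟨u, rfl⟩ := QuotientGroup.mk_surjective q.toMul
      obtain ⟨n, ⟨hn, hn'⟩, h⟩ := irr N (fun x ⟨hx, _⟩ => hx) hNH hN u u.2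
      have := (mk_eq (u := ⟨n, hn⟩) (v := u)).2 h
      exact (congrArg (fun z => (Additive.ofMul z ∈ S)) this).mp hn'
  have hmem : ∀ k : ↥K, a ⟨k, hK k.2⟩ ∈ commRing aH := fun k =>
    Subring.mem_centralizer_iff.2 (by rintro _ ⟨h, rfl⟩; exact (heq _ _).1 (hc h h.2 k k.2))
  refine ⟨fun k hk k' hk' => (heq ⟨k, hK hk⟩ ⟨k', hK hk'⟩).2
    ((commRing_comm hirr).2 _ (hmem ⟨k, hk⟩) _ (hmem ⟨k', hk'⟩)), ?_⟩
  intro p _ hcard hexp ⟨h, hh, h', hh', u, hu, hne⟩ k hk
  obtain ⟨i, hi⟩ := commRing_scalar (p := p) (by rw [← hcard]; rfl) hirr (i := ⟨h, hh⟩) (j := ⟨h', hh'⟩)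
    (fun e => hne ((heq _ _).2 e u hu)) (fun q => by
      obtain ⟨v, rfl⟩ := QuotientGroup.mk_surjective q.toMul
      show Additive.ofMul (mk v ^ p) = Additive.ofMul (mk 1)
      refine congrArg Additive.ofMul ((mk_eq (u := v ^ p) (v := 1)).2 ?_)
      simpa using hexp v v.2) (hmem ⟨k, hk⟩)
  refine ⟨i, fun v hv => ?_⟩
  have h1 := congrArg Additive.toMul (hi (Additive.ofMul (mk ⟨v, hv⟩)))
  have h2 := (mk_eq (u := (⟨v, hv⟩ : ↥U) ^ i) (v := ⟨_, hconj k (hK hk) ⟨v, hv⟩⟩)).1 h1.symm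
  simpa using h2

/-- A finite group acting on a `p`-group: a stabilised element of coprime order. -/
theorem comm_eq_one_of_coprime {p : ℕ} {D : Subgroup G} (hD : IsPGroup p D) {c a : G}
    (hc : (orderOf c).Coprime p) (h1 : ⁅c, a⁆ ∈ D) (h2 : Commute c ⁅c, a⁆) : ⁅c, a⁆ = 1 := by
  have hk := LocalP.conj_pow_eq_of_commute (x := c) (r := a) (c := ⁅c, a⁆)
    (by simp only [commutatorElement_def]; group) h2 (orderOf c)
  rw [pow_orderOf_eq_one, one_mul, inv_one, mul_one, eq_comm, mul_eq_right] at hk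
  obtain ⟨k, hk'⟩ := hD ⟨_, h1⟩
  have hk'' : ⁅c, a⁆ ^ p ^ k = 1 := by simpa using congrArg Subtype.val hk'
  exact orderOf_eq_one_iff.1 (Nat.eq_one_of_dvd_coprimes (hc.pow_right k)
    (orderOf_dvd_of_pow_eq_one hk) (orderOf_dvd_of_pow_eq_one hk''))

theorem commute_pow_of_quotient {p : ℕ} [Fact p.Prime] [Finite G] (c : G) :
    ∃ m : ℕ, (orderOf (c ^ m)).Coprime p ∧ (∃ k, m = p ^ k) := by
  refine ⟨p ^ (orderOf c).factorization p, ?_, _, rfl⟩
  rw [orderOf_pow' c (pow_ne_zero _ (Fact.out : p.Prime).ne_zero), Nat.gcd_eq_right (Nat.ordProj_dvd (orderOf c) p)]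
  exact (Nat.coprime_ordCompl (Fact.out : p.Prime) (orderOf_pos c).ne').symm

/-- A group acting on a quotient of order at most two. -/
theorem commutator_le_of_pairs {F K B : Subgroup G} (hBF : B ≤ normalizer (F : Set G)) (hBK : B ≤ normalizer (K : Set G))
    (htwo : ∀ f ∈ F, ∀ f' ∈ F, f ∉ K → f' ∉ K → f⁻¹ * f' ∈ K) : ⁅F, B⁆ ≤ K := by
  refine commutator_le.2 fun f hf b hb => ?_
  have e : ⁅f, b⁆ = f * (b * f⁻¹ * b⁻¹) := by simp only [commutatorElement_def]; group
  rw [e]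
  by_cases h : f ∈ K
  · exact K.mul_mem h ((mem_normalizer_iff.1 (hBK hb) _).1 (K.inv_mem h))
  · have h1 : b * f⁻¹ * b⁻¹ ∉ K := fun hm => h (by
      simpa using K.inv_mem ((mem_normalizer_iff.1 (hBK hb) _).2 hm))
    have h2 : f⁻¹ ∉ K := fun hm => h (by simpa using K.inv_mem hm)
    simpa using htwo f⁻¹ (F.inv_mem hf) _ ((mem_normalizer_iff.1 (hBF hb) _).1 (F.inv_mem hf)) h2 h1

end Cfsg.Agent.LAE79
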