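import Mathlib
import Cfsg.Agent.LAE62.BlockCentralizer.Basic
import Cfsg.Agent.LAE60.CharP

/-!
Conjugates of blocks are blocks.
-/

set_option autoImplicit false

open Subgroup
open scoped commutatorElement Pointwise

namespace Cfsg.Agent.LAE79

variable {G : Type*} [Group G] {p : ℕ}

/-- Conjugation by `g` as a homomorphism. -/
abbrev cj (g : G) : G →* G := (MulAut.conj g).toMonoidHom

theorem cj_injective (g : G) : Function.Injective (cj g) := (MulAut.conj g).injective

theorem cj_apply (g x : G) : cj g x = g * x * g⁻¹ := rfl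

theorem map_omegaOneCenter' (g : G) (X : Subgroup G) :
    (Cfsg.omegaOneCenter p X).map (cj g) = Cfsg.omegaOneCenter p (X.map (cj g)) := by
  rw [Cfsg.omegaOneCenter, Cfsg.omegaOneCenter, LAE62.Baumann.map_omegaOne (cj_injective g),
    Modules.map_inf_centralizer (cj_injective g)]

theorem map_pResidualOf' (g : G) (E : Subgroup G) :
    (Cfsg.pResidualOf p E).map (cj g) = Cfsg.pResidualOf p (E.map (cj g)) := by
  have h := Cores.map_pResidual_equiv (p := p) (E.equivMapOfInjective (cj g) (cj_injective g))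
  rw [Cfsg.pResidualOf, Cfsg.pResidualOf, ← h, map_map, map_map]
  rfl

theorem frattini_equiv_mem {A B : Type*} [Group A] [Group B] (e : A ≃* B) {x : A} (hx : x ∈ frattini A) :
    e x ∈ frattini B := by
  simp only [frattini, Order.radical, mem_iInf]
  intro M hM
  have h : IsCoatom (M.comap e.toMonoidHom) := (OrderIso.isCoatom_iff e.comapSubgroup M).2 hM
  exact frattini_le_coatom h hx

theorem map_frattiniOf (g : G) (Q : Subgroup G) :
    ((frattini ↥Q).map Q.subtype).map (cj g) = (frattini ↥(Q.map (cj g))).map (Q.map (cj g)).subtype := by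
  set e := Q.equivMapOfInjective (cj g) (cj_injective g)
  have h : (frattini ↥Q).map (e : ↥Q →* ↥(Q.map (cj g))) = frattini ↥(Q.map (cj g)) := by
    refine le_antisymm ?_ fun y hy => ⟨e.symm y, frattini_equiv_mem e.symm hy, e.apply_symm_apply y⟩
    rintro _ ⟨x, hx, rfl⟩
    exact frattini_equiv_mem e hx
  rw [← h, map_map, map_map]
  rfl

theorem actsAsSL2_map {F : Type*} [Field F] {R : Subgroup (Matrix.SpecialLinearGroup (Fin 2) F)}
    (g : G) {E U U₀ : Subgroup G} (h : Cfsg.ActsAsSL2OnSection F R E U U₀) :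
    Cfsg.ActsAsSL2OnSection F R (E.map (cj g)) (U.map (cj g)) (U₀.map (cj g)) := by
  obtain ⟨hn, hle, ρ, ψ, hρ, hψ, hker, hact⟩ := h
  set eE := E.equivMapOfInjective (cj g) (cj_injective g)
  set eU := U.equivMapOfInjective (cj g) (cj_injective g)
  refine ⟨(map_mono hn).trans (le_normalizer_map _), map_mono hle, ρ.comp eE.symm.toMonoidHom,
    ψ.comp eU.symm.toMonoidHom, ?_, hψ.comp eU.symm.surjective, fun u => ?_, fun e u => ?_⟩
  · rw [MonoidHom.range_comp, MonoidHom.range_eq_top.2 eE.symm.surjective, ← MonoidHom.range_eq_map, hρ]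
  · obtain ⟨v, rfl⟩ := eU.surjective u
    show ψ (eU.symm (eU v)) = 1 ↔ cj g v ∈ U₀.map (cj g)
    rw [eU.symm_apply_apply, hker, mem_map_iff_mem (cj_injective g)]
  · obtain ⟨e, rfl⟩ := eE.surjective e
    obtain ⟨v, rfl⟩ := eU.surjective u
    obtain ⟨w, hw, hw'⟩ := hact e v
    refine ⟨eU w, ?_, ?_⟩
    · show cj g w = cj g e * cj g v * (cj g e)⁻¹
      rw [hw, map_mul, map_mul, map_inv]
    · show Multiplicative.toAdd (ψ (eU.symm (eU w))) =
        ((ρ (eE.symm (eE e)) : Matrix.SpecialLinearGroup (Fin 2) F) : Matrix (Fin 2) (Fin 2) F).mulVec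
          (Multiplicative.toAdd (ψ (eU.symm (eU v))))
      rw [eU.symm_apply_apply, eU.symm_apply_apply, eE.symm_apply_apply, hw']

theorem actsAsPerm_map {n : ℕ} {R : Subgroup (Equiv.Perm (Fin n))} (g : G) {E U U₀ : Subgroup G}
    (h : Cfsg.ActsAsOddPermModuleOnSection n R E U U₀) :
    Cfsg.ActsAsOddPermModuleOnSection n R (E.map (cj g)) (U.map (cj g)) (U₀.map (cj g)) := by
  obtain ⟨hn, hle, ρ, ψ, hρ, hev, hψ, hker, hact⟩ := h
  set eE := E.equivMapOfInjective (cj g) (cj_injective g)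
  set eU := U.equivMapOfInjective (cj g) (cj_injective g)
  refine ⟨(map_mono hn).trans (le_normalizer_map _), map_mono hle, ρ.comp eE.symm.toMonoidHom,
    ψ.comp eU.symm.toMonoidHom, ?_, fun u => hev _, fun v hv => ?_, fun u => ?_, fun e u => ?_⟩
  · rw [MonoidHom.range_comp, MonoidHom.range_eq_top.2 eE.symm.surjective, ← MonoidHom.range_eq_map, hρ]
  · obtain ⟨u, hu⟩ := hψ v hv
    exact ⟨eU u, by
      show Multiplicative.toAdd (ψ (eU.symm (eU u))) = v
      rw [eU.symm_apply_apply, hu]⟩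
  · obtain ⟨v, rfl⟩ := eU.surjective u
    show ψ (eU.symm (eU v)) = 1 ↔ cj g v ∈ U₀.map (cj g)
    rw [eU.symm_apply_apply, hker, mem_map_iff_mem (cj_injective g)]
  · obtain ⟨e, rfl⟩ := eE.surjective e
    obtain ⟨v, rfl⟩ := eU.surjective u
    obtain ⟨w, hw, hw'⟩ := hact e v
    refine ⟨eU w, ?_, fun i => ?_⟩
    · show cj g w = cj g e * cj g v * (cj g e)⁻¹
      rw [hw, map_mul, map_mul, map_inv]
    · show Multiplicative.toAdd (ψ (eU.symm (eU w))) i =
        Multiplicative.toAdd (ψ (eU.symm (eU v))) ((ρ (eE.symm (eE e)))⁻¹ i)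
      rw [eU.symm_apply_apply, eU.symm_apply_apply, eE.symm_apply_apply, hw' i]

/-- A conjugate of a block is a block. -/
theorem isBaumannBlock_map [Finite G] [Fact p.Prime] (g : G) {T : Subgroup G} {E : Subgroup G}
    (h : Cfsg.IsBaumannBlock p T E) : Cfsg.IsBaumannBlock p (T.map (cj g)) (E.map (cj g)) := by
  have hinj := cj_injective g
  obtain ⟨hres, hEB, hQE, hΩ, hmod⟩ := h
  have hQ : Cfsg.pCoreOf p (E.map (cj g)) = (Cfsg.pCoreOf p E).map (cj g) := LAE60.pCoreOf_map _ hinj E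
  have hW : Cfsg.omegaOneCenter p (Cfsg.pCoreOf p (E.map (cj g))) =
      (Cfsg.omegaOneCenter p (Cfsg.pCoreOf p E)).map (cj g) := by rw [hQ, map_omegaOneCenter']
  have hC : ∀ X : Subgroup G, X.map (cj g) ⊓ centralizer ((E.map (cj g) : Subgroup G) : Set G) =
      (X ⊓ centralizer (E : Set G)).map (cj g) := fun X => (Modules.map_inf_centralizer hinj X E).symm
  let q : ↥(E.map (cj g)) ⧸ Cfsg.pCore p ↥(E.map (cj g)) ≃* ↥E ⧸ Cfsg.pCore p ↥E :=
    QuotientGroup.congr _ _ (E.equivMapOfInjective (cj g) hinj).symm (Cores.map_pCore_equiv _)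
  refine ⟨?_, ?_, ?_, ?_, ?_⟩
  · rw [← map_pResidualOf', hres]
  · rw [← LAE62.Baumann.map_baumannSubgroupOf hinj, ← map_commutator, hEB]
  · rw [hQ, ← map_commutator, hQE]
  · rw [← map_omegaOneCenter', ← map_commutator]
    exact fun h0 => hΩ ((map_eq_bot_iff_of_injective _ hinj).1 h0)
  rw [hW, hQ, hC]
  rcases hmod with ⟨F, iF, iFt, n, hcard, ⟨e⟩, hact, hQW⟩ | ⟨hp, m, hrest⟩
  · refine Or.inl ⟨F, iF, iFt, n, hcard, ⟨q.trans e⟩, actsAsSL2_map g hact, ?_⟩
    rcases hQW with hQW | ⟨hp3, hact2, hQQ, hfr, hZE, hn, hq⟩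
    · exact Or.inl (congrArg (fun X => X.map (cj g)) hQW)
    · refine Or.inr ⟨hp3, actsAsSL2_map g hact2, ?_, ?_, ?_, ?_, ?_⟩
      · rw [← map_commutator, hQQ]
      · have := map_frattiniOf g (Cfsg.pCoreOf p E)
        rw [← hQ] at this
        rw [← hQ, ← this, hfr]
      · rw [hC, hZE]
      · rw [hC, card_map_of_injective hinj, hn]
      · intro b hb hbc hle
        rw [← LAE62.Baumann.map_baumannSubgroupOf hinj] at hb
        obtain ⟨b, hb, rfl⟩ := hb
        refine hq b hb (fun hc => hbc ?_) ?_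
        · rintro _ ⟨w, hw, rfl⟩
          rw [← map_mul, ← map_mul, mem_centralizer_iff.1 hc w hw]
        · rw [← MonoidHom.map_zpowers, ← map_commutator, ← map_commutator, hC] at hle
          exact (map_le_map_iff_of_injective hinj).1 hle
  · obtain ⟨hm, hact, hQW⟩ := hrest
    exact Or.inr ⟨hp, m, hm.map fun e => q.trans e, actsAsPerm_map g hact,
      congrArg (fun X => X.map (cj g)) hQW⟩

theorem blockSetting_map [Finite G] [Fact p.Prime] (g : G) {T : Sylow p G} {E : Subgroup G}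
    (h : LAE62.BlockCent.BlockSetting T E) :
    ∃ T' : Sylow p G, LAE62.BlockCent.BlockSetting T' (E.map (cj g)) := by
  refine ⟨g • T, h.char, ?_⟩
  rw [Sylow.coe_subgroup_smul]
  exact isBaumannBlock_map g h.block

end Cfsg.Agent.LAE79
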