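import Mathlib
import Cfsg.Agent.LAE79.OffenderGeometry
import Cfsg.Agent.LAE62.HuaMain
import Cfsg.Agent.LAE62.SL2Image

set_option autoImplicit false

/-! A minimal offender in a unique maximal subgroup gives a natural `SL₂` module. -/

namespace Cfsg.Agent.LAE79

open LAE62

/-- A carrier in `Type` for a field transported along an equivalence. -/
structure Car (n : ℕ) where
  /-- The underlying index. -/
  val : Fin n

/-- `Car n` is just `Fin n` without its arithmetic. -/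
def carEquiv (n : ℕ) : Car n ≃ Fin n := ⟨Car.val, Car.mk, fun _ => rfl, fun _ => rfl⟩

namespace Setting

variable {P : Type*} [Group P] {V : Type*} [AddCommGroup V] [DistribMulAction P V]
variable {p : ℕ} {A M : Subgroup P} {T : Sylow p P} (D : Setting V p A M T)
variable [Finite P] [hp : Fact p.Prime] [Finite V]
include D

local notation "U₀" => fixV (V := V) A
local notation "Z₀" => fixV (V := V) (⊤ : Subgroup P)

omit [Finite P] hp [Finite V] in
theorem piece_top : Piece T (⊤ : AddSubgroup V) :=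
  ⟨fun _ _ _ => trivial, by obtain ⟨z, hz, hz'⟩ := D.moved; exact ⟨z, trivial, hz, hz'⟩⟩

theorem top_bound : Nat.card (⊤ : AddSubgroup V) * Nat.card ↥(A ⊓ Cfsg.pCore p P) ≤
    Nat.card A * Nat.card (fixV A ⊓ ⊤ : AddSubgroup V) := by
  rw [D.inf_pCore_eq_bot, Subgroup.card_bot, mul_one, inf_top_eq, AddSubgroup.card_top]
  exact D.off

theorem semiregular {y a : P} (hy : y ∉ M) (ha : a ∈ A) (h : y⁻¹ * a * y ∈ M) : a = 1 := by
  rw [← Subgroup.mem_bot, ← D.inf_pCore_eq_bot]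
  exact ⟨ha, D.mem_pCore_of_conj_mem D.piece_top D.top_bound hy ha h⟩

omit [Finite P] hp [Finite V] in
theorem fixed_le : Z₀ ≤ U₀ := fun _ hv a _ => hv a trivial

omit [Finite P] hp [Finite V] in
theorem diff_mem {a : P} (ha : a ∈ A) (v : V) : a • v - v ∈ U₀ := fun b hb => D.quad a ha b hb v

theorem kernel_trivial {y : P} (hy : y ∉ M) {u : V} (hu : u ∈ U₀) (hu' : u ∉ Z₀) {a : P} (ha : a ∈ A)
    (h : a • (y • u) - y • u ∈ Z₀) : a = 1 := by
  refine D.semiregular hy ha (D.stab_mod_le_conj (v := y • u) (by rw [inv_smul_smul]; exact hu) (fun hz => hu' ?_) h)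
  have h2 := hz y⁻¹ trivial
  rw [inv_smul_smul] at h2
  exact h2 ▸ hz

theorem card_eqs : Nat.card U₀ = Nat.card A * Nat.card Z₀ ∧ Nat.card V = Nat.card A * Nat.card U₀ := by
  obtain ⟨y, hy⟩ := D.exists_notMem
  obtain ⟨z, hz, hz'⟩ := D.moved
  have hzU : z ∈ U₀ := fun a ha => hz a (D.le ha)
  have h1 := D.card_le_of_displacement (u := y • z) (S := U₀) (A₀ := (⊥ : Subgroup P))
    (fun v hv => hv.2) (fun a ha => D.diff_mem ha _)
    (fun a ha h => Subgroup.mem_bot.2 (D.kernel_trivial hy hzU hz' ha h))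
  rw [inf_eq_left.2 D.fixed_le, Subgroup.card_bot, one_mul] at h1
  have h2 := D.sq_card_le D.piece_top hy
  rw [inf_top_eq, inf_top_eq, AddSubgroup.card_top] at h2
  have h3 := D.off
  have hU : 0 < Nat.card U₀ := Nat.card_pos
  have hZ : 0 < Nat.card Z₀ := Nat.card_pos
  have h4 : Nat.card U₀ ≤ Nat.card A * Nat.card Z₀ := by
    refine Nat.le_of_mul_le_mul_left ?_ hU
    calc Nat.card U₀ * Nat.card U₀ ≤ Nat.card V * Nat.card Z₀ := h2
      _ ≤ Nat.card A * Nat.card U₀ * Nat.card Z₀ := Nat.mul_le_mul_right _ h3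
      _ = _ := by ring
  have h5 := le_antisymm h4 h1
  refine ⟨h5, le_antisymm h3 ?_⟩
  refine Nat.le_of_mul_le_mul_right ?_ hZ
  calc Nat.card A * Nat.card U₀ * Nat.card Z₀ = Nat.card U₀ * (Nat.card A * Nat.card Z₀) := by ring
    _ ≤ _ := by rw [← h5]; exact h2

theorem sup_eq_top {y : P} (hy : y ∉ M) : ∀ v : V, ∃ c ∈ U₀, ∃ u ∈ U₀, v = c + y • u := by
  obtain ⟨h1, h2⟩ := D.card_eqs
  let f : U₀ × U₀ →+ V :=
    AddMonoidHom.coprod (U₀).subtype ((DistribMulAction.toAddMonoidHom V y).comp (U₀).subtype)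
  have hk : Nat.card f.ker ≤ Nat.card Z₀ := by
    refine Nat.card_le_card_of_injective (fun v => (⟨((v : U₀ × U₀).1 : V), ?_⟩ : Z₀)) ?_
    · have hv := AddMonoidHom.mem_ker.1 v.2
      refine D.fix_eq_of_two hy (v : U₀ × U₀).1.2 ?_
      have e : ((v : U₀ × U₀).1 : V) = y • (-((v : U₀ × U₀).2 : V)) := by
        rw [smul_neg]; exact eq_neg_of_add_eq_zero_left hv
      rw [e, inv_smul_smul]
      exact neg_mem (v : U₀ × U₀).2.2
    · intro a b hab
      have ha := AddMonoidHom.mem_ker.1 a.2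
      have hb := AddMonoidHom.mem_ker.1 b.2
      have e1 : ((a : U₀ × U₀).1 : V) = ((b : U₀ × U₀).1 : V) := congrArg (fun z : Z₀ => (z : V)) hab
      refine Subtype.ext (Prod.ext (Subtype.ext e1) (Subtype.ext (smul_left_cancel y ?_)))
      have := ha.trans hb.symm
      simp only [f, AddMonoidHom.coprod_apply, AddSubgroup.subtype_apply, AddMonoidHom.coe_comp,
        Function.comp_apply, DistribMulAction.toAddMonoidHom_apply] at this
      rw [e1] at this
      exact add_left_cancel this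
  have hr : f.range = ⊤ := by
    refine AddSubgroup.eq_top_of_le_card _ ?_
    have h3 := f.ker.card_mul_index
    rw [AddSubgroup.index_ker, Nat.card_prod] at h3
    refine Nat.le_of_mul_le_mul_left ?_ (Nat.card_pos (α := Z₀))
    calc Nat.card Z₀ * Nat.card V = Nat.card U₀ * Nat.card U₀ := by rw [h2, h1]; ring
      _ = Nat.card f.ker * Nat.card f.range := h3.symm
      _ ≤ _ := Nat.mul_le_mul_right _ hk
  intro v
  obtain ⟨⟨c, u⟩, h⟩ : v ∈ f.range := hr ▸ AddSubgroup.mem_top v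
  exact ⟨c, c.2, u, u.2, h.symm⟩

theorem displacement_surj {y : P} (hy : y ∉ M) {u : V} (hu : u ∈ U₀) (hu' : u ∉ Z₀) {c : V} (hc : c ∈ U₀) :
    ∃ a ∈ A, a • (y • u) - y • u - c ∈ Z₀ := by
  obtain ⟨h1, -⟩ := D.card_eqs
  let g : A × Z₀ → U₀ := fun az => ⟨(az.1 : P) • (y • u) - y • u + az.2,
    add_mem (D.diff_mem az.1.2 _) (D.fixed_le az.2.2)⟩
  have hg : Function.Injective g := by
    intro az bz h
    have h' : (az.1 : P) • (y • u) - y • u + az.2 = (bz.1 : P) • (y • u) - y • u + bz.2 :=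
      congrArg Subtype.val h
    have e : az.1 = bz.1 := by
      have h3 : ((bz.1 : P))⁻¹ * (az.1 : P) = 1 := by
        refine D.kernel_trivial hy hu hu' (mul_mem (inv_mem bz.1.2) az.1.2) ?_
        have h4 : (az.1 : P) • (y • u) = (bz.1 : P) • (y • u) + ((bz.2 : V) - az.2) := by
          linear_combination (norm := abel) h'
        have h5 : ((bz.2 : V) - az.2) ∈ Z₀ := sub_mem bz.2.2 az.2.2
        rw [mul_smul, h4, smul_add, inv_smul_smul, h5 _ trivial, add_sub_cancel_left]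
        exact h5
      exact Subtype.ext (inv_mul_eq_one.1 h3).symm
    rw [e] at h'
    exact Prod.ext e (Subtype.ext (add_left_cancel h'))
  obtain ⟨⟨a, z⟩, haz⟩ := ((Nat.bijective_iff_injective_and_card g).2
    ⟨hg, by rw [Nat.card_prod, h1]⟩).2 ⟨c, hc⟩
  refine ⟨a, a.2, ?_⟩
  have : (a : P) • (y • u) - y • u + z = c := congrArg Subtype.val haz
  rw [← this, sub_add_cancel_left]
  exact neg_mem z.2

theorem meet {y g : P} (hy : y ∉ M) {u : V} (hu : u ∈ U₀) (hu' : u ∉ Z₀) (hg : g • u ∉ U₀) :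
    ∃ a ∈ A, g⁻¹ * (a * y) ∈ M := by
  obtain ⟨c, hc, u', hu'', he⟩ := D.sup_eq_top hy (g • u)
  have hu3 : u' ∉ Z₀ := fun h => hg (by rw [he, h y trivial]; exact add_mem hc hu'')
  obtain ⟨a, ha, hz⟩ := D.displacement_surj hy hu'' hu3 hc
  refine ⟨a, ha, ?_⟩
  by_contra hm
  apply hu'
  set z := a • (y • u') - y • u' - c with hzdef
  have h1 : g⁻¹ • (a • (y • u')) = u + z := by
    have : a • (y • u') = g • u + z := by rw [he, hzdef]; abel
    rw [this, smul_add, inv_smul_smul, hz g⁻¹ trivial]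
  have h2 : u + z ∈ Z₀ := by
    refine D.fix_eq_of_two hm (add_mem hu (D.fixed_le hz)) ?_
    rw [← h1]
    simp only [← mul_smul]
    rw [show (g⁻¹ * (a * y))⁻¹ * (g⁻¹ * (a * y)) = 1 by group, one_smul]
    exact hu''
  have := sub_mem h2 hz
  rwa [add_sub_cancel_right] at this

theorem exists_moved : ∃ u ∈ U₀, u ∉ Z₀ := by
  obtain ⟨z, hz, hz'⟩ := D.moved
  exact ⟨z, fun a ha => hz a (D.le ha), hz'⟩

theorem M_le_stab : ∀ m ∈ M, ∀ u ∈ U₀, m • u ∈ U₀ := by
  intro m hm u hu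
  by_contra h
  obtain ⟨x, hx⟩ := D.exists_notMem
  obtain ⟨a, ha, ham⟩ := D.meet hx hu (fun hz => h (by rw [hz m trivial]; exact hu)) h
  refine hx ?_
  have := mul_mem (inv_mem (D.TM (D.le ha))) (mul_mem hm ham)
  simpa using this

theorem notMem_moves {g : P} (hg : g ∉ M) {u : V} (hu : u ∈ U₀) (hu' : u ∉ Z₀) : g • u ∉ U₀ := fun h => by
  apply hu'
  have h2 := D.fix_eq_of_two hg h (by rwa [inv_smul_smul])
  have h3 := h2 g⁻¹ trivial
  rw [inv_smul_smul] at h3
  exact h3 ▸ h2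

theorem faith_mod : ∀ g : P, (∀ v, g • v - v ∈ Z₀) → g = 1 := by
    obtain ⟨x, hx⟩ := D.exists_notMem
    let N' : Subgroup P :=
      { carrier := {g | ∀ v, g • v - v ∈ Z₀}
        one_mem' := fun v => by rw [one_smul, sub_self]; exact zero_mem _
        mul_mem' := fun {a b} ha hb v => by
          have : (a * b) • v - v = (a • (b • v) - b • v) + (b • v - v) := by rw [mul_smul]; abel
          rw [this]; exact add_mem (ha _) (hb v)
        inv_mem' := fun {a} ha v => by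
          have := ha (a⁻¹ • v)
          rw [smul_inv_smul] at this
          have h := neg_mem this
          rwa [neg_sub] at h }
    have hN'n : N'.Normal := by
      constructor
      intro n hn k v
      have h1 := hn (k⁻¹ • v)
      have h2 : (k * n * k⁻¹) • v - v = n • (k⁻¹ • v) - k⁻¹ • v := by
        rw [← h1 k trivial, smul_sub, smul_inv_smul, mul_smul, mul_smul]
      rw [h2]; exact h1
    have hstab : ∀ g ∈ N', ∀ v, g • v - v ∈ Z₀ := fun g hg => hg
    have hpN : IsPGroup p N' := by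
      refine fun g => ⟨1, Subtype.ext (D.faith _ fun v => ?_)⟩
      have hd : (g : P) • ((g : P) • v - v) = (g : P) • v - v := hstab g g.2 v g trivial
      have hpow : ∀ k : ℕ, (g : P) ^ k • v = v + k • ((g : P) • v - v) := by
        intro k
        induction k with
        | zero => simp
        | succ k ih =>
          rw [pow_succ', mul_smul, ih, smul_add, smul_comm (g : P) k, hd, succ_nsmul]
          abel
      rw [pow_one, Subgroup.coe_pow, hpow, D.exp, add_zero]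
    have hle : N' ≤ Cfsg.pCore p P := Cores.le_pCore inferInstance hpN
    intro g hg
    refine D.faith g fun v => ?_
    -- the fixed points of the core cover `V` modulo `Z`
    set R := Cfsg.pCore p P
    obtain ⟨z, hz, hz'⟩ := D.moved
    have hzU : z ∈ U₀ := fun a ha => hz a (D.le ha)
    have hWinv : ∀ (k : P), ∀ w ∈ fixV (V := V) R, k • w ∈ fixV (V := V) R := by
      intro k w hw r hr
      have h := hw (k⁻¹ * r * k) (by simpa using (inferInstance : R.Normal).conj_mem r hr k⁻¹)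
      rw [mul_smul, mul_smul, inv_smul_eq_iff] at h
      exact h
    have hzR : z ∈ fixV (V := V) R := fun r hr => hz r (Cores.pCore_le_sylow T hr)
    set X := fixV (V := V) R ⊔ Z₀ with hX
    have hUX : ∀ c ∈ U₀, c ∈ X := by
      intro c hc
      obtain ⟨a, ha, h⟩ := D.displacement_surj hx hzU hz' hc
      have : c = (a • (x • z) - x • z) - (a • (x • z) - x • z - c) := by abel
      rw [this]
      refine sub_mem (AddSubgroup.mem_sup_left ?_) (AddSubgroup.mem_sup_right h)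
      exact sub_mem (hWinv a _ (hWinv x _ hzR)) (hWinv x _ hzR)
    obtain ⟨c, hc, u, hu, rfl⟩ := D.sup_eq_top hx v
    have hxX : x • u ∈ X := by
      obtain ⟨w₁, hw₁, z₁, hz₁, he⟩ := AddSubgroup.mem_sup.1 (hUX u hu)
      rw [← he, smul_add, hz₁ x trivial]
      exact add_mem (AddSubgroup.mem_sup_left (hWinv x _ hw₁)) (AddSubgroup.mem_sup_right hz₁)
    obtain ⟨w₁, hw₁, z₁, hz₁, he⟩ := AddSubgroup.mem_sup.1 (add_mem (hUX c hc) hxX)
    rw [← he, smul_add, hw₁ g (hle hg), hz₁ g trivial]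

set_option maxHeartbeats 1600000 in
set_option synthInstance.maxHeartbeats 80000 in
/-- The main result. -/
theorem recognition :
    ∃ (F : Type) (_ : Field F) (_ : Fintype F), Fintype.card F = Nat.card A ∧
      (∃ (ρ : P ≃* Matrix.SpecialLinearGroup (Fin 2) F) (ψ : V →+ (Fin 2 → F)),
        Function.Surjective ψ ∧ (∀ v, ψ v = 0 ↔ v ∈ Z₀) ∧
        ∀ g v, ψ (g • v) = (ρ g : Matrix (Fin 2) (Fin 2) F).mulVec (ψ v)) ∧
      ∀ c ∈ U₀, ∃ a ∈ A, ∃ w : V, ∃ z ∈ Z₀, c = (a • w - w) + z := by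
  classical
  obtain ⟨x, hx⟩ := D.exists_notMem
  have hx' : x⁻¹ ∉ M := fun h => hx (by simpa using inv_mem h)
  obtain ⟨u₀, hu₀, hu₀'⟩ := D.exists_moved
  obtain ⟨hcU, hcV⟩ := D.card_eqs
  -- the quotient `U / Z`
  let N : AddSubgroup U₀ := (Z₀).addSubgroupOf U₀
  let mk : U₀ →+ U₀ ⧸ N := QuotientAddGroup.mk' N
  have hmk : ∀ c : U₀, mk c = 0 ↔ (c : V) ∈ Z₀ := fun c => QuotientAddGroup.eq_zero_iff c
  have hmksurj : Function.Surjective mk := QuotientAddGroup.mk'_surjective N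
  have hcardq : Nat.card (U₀ ⧸ N) = Nat.card A := by
    have h := N.card_mul_index
    rw [Nat.card_congr (AddSubgroup.addSubgroupOfEquivOfLe D.fixed_le).toEquiv, hcU, mul_comm] at h
    exact Nat.eq_of_mul_eq_mul_right Nat.card_pos h
  haveI hEndFin : Finite (AddMonoid.End (U₀ ⧸ N)) :=
    Finite.of_injective (fun f : AddMonoid.End (U₀ ⧸ N) => (f : (U₀ ⧸ N) → (U₀ ⧸ N))) DFunLike.coe_injective
  -- displacement maps
  let dispU : P → A → (U₀ →+ U₀) := fun y a => AddMonoidHom.mk'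
    (fun u => ⟨(a : P) • (y • (u : V)) - y • (u : V), D.diff_mem a.2 _⟩) fun u v => Subtype.ext (by
      show (a : P) • (y • ((u : V) + v)) - y • ((u : V) + v) =
        ((a : P) • (y • (u : V)) - y • (u : V)) + ((a : P) • (y • (v : V)) - y • (v : V))
      rw [smul_add, smul_add]; exact add_sub_add_comm _ _ _ _)
  let disp : P → A → AddMonoid.End (U₀ ⧸ N) := fun y a => QuotientAddGroup.map N N (dispU y a)
    fun u hu => by
      show (a : P) • (y • (u : V)) - y • (u : V) ∈ Z₀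
      rw [(AddSubgroup.mem_addSubgroupOf.1 hu) y trivial, (AddSubgroup.mem_addSubgroupOf.1 hu) a trivial,
        sub_self]
      exact zero_mem _
  have hdisp : ∀ y a (u : U₀), disp y a (mk u) = mk (dispU y a u) := fun _ _ _ => rfl
  have hdadd : ∀ y (a b : A), disp y (a * b) = disp y a + disp y b := by
    intro y a b
    refine AddMonoidHom.ext fun q => ?_
    obtain ⟨u, rfl⟩ := hmksurj q
    show mk (dispU y (a * b) u) = mk (dispU y a u) + mk (dispU y b u)
    rw [← map_add]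
    congr 1
    refine Subtype.ext ?_
    show ((a : P) * (b : P)) • (y • (u : V)) - y • (u : V) =
      ((a : P) • (y • (u : V)) - y • (u : V)) + ((b : P) • (y • (u : V)) - y • (u : V))
    have h := D.quad b b.2 a a.2 (y • (u : V))
    rw [smul_sub] at h
    rw [mul_smul]
    linear_combination (norm := abel) h
  have hd1 : ∀ y, disp y 1 = 0 := fun y => by
    have := hdadd y 1 1
    rw [one_mul] at this
    refine AddMonoidHom.ext fun q => ?_
    exact left_eq_add.1 (congrArg (fun r : AddMonoid.End (U₀ ⧸ N) => r q) this :)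
  have hdinj : ∀ y, y ∉ M → ∀ a : A, a ≠ 1 → Function.Bijective (disp y a) := by
    intro y hy a ha
    refine Finite.injective_iff_bijective.1 ((injective_iff_map_eq_zero (disp y a)).2 fun q hq => ?_)
    obtain ⟨u, rfl⟩ := hmksurj q
    rw [hdisp, hmk] at hq
    rw [hmk]
    by_contra hu
    exact ha (Subtype.ext (D.kernel_trivial hy u.2 hu a.2 hq))
  have hAne : A ≠ ⊥ := by
    intro h
    have h1 : (⊥ : Subgroup P) = ⊤ := D.gen x hx ⊥ (h ▸ le_rfl) (by
      intro a ha; rw [h, Subgroup.mem_bot] at ha; simp [ha])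
    exact hx (D.TM (bot_le (a := (T : Subgroup P)) (h1 ▸ Subgroup.mem_top x)))
  obtain ⟨a₀', ha₀'⟩ := (Subgroup.ne_bot_iff_exists_ne_one.1 hAne)
  set a₀ : A := a₀' with ha₀def
  have ha₀ : a₀ ≠ 1 := ha₀'
  let f0 : (U₀ ⧸ N) ≃+ (U₀ ⧸ N) := AddEquiv.ofBijective (disp x a₀) (hdinj x hx a₀ ha₀)
  -- the two root maps
  let φ : A → AddMonoid.End (U₀ ⧸ N) := fun a => (disp x a).comp f0.symm.toAddMonoidHom
  let γ : A → AddMonoid.End (U₀ ⧸ N) := fun a => f0.toAddMonoidHom.comp (disp x⁻¹ a)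
  have hφadd : ∀ a b, φ (a * b) = φ a + φ b := fun a b => by
    show (disp x (a * b)).comp _ = _
    rw [hdadd]; rfl
  have hφ1 : φ 1 = 0 := by
    show (disp x 1).comp _ = _
    rw [hd1]; rfl
  have hφinv : ∀ a, φ a⁻¹ = -φ a := fun a => eq_neg_of_add_eq_zero_left (by
    rw [← hφadd, inv_mul_cancel, hφ1])
  have hφone : φ a₀ = 1 := AddMonoidHom.ext fun q => f0.apply_symm_apply q
  have hφbij : ∀ a, a ≠ 1 → Function.Bijective (φ a) := fun a ha =>
    (hdinj x hx a ha).comp f0.symm.bijective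
  have hφker : ∀ a, φ a = 0 → a = 1 := by
    intro a h
    by_contra ha
    refine hu₀' ((hmk ⟨u₀, hu₀⟩).1 ((hφbij a ha).1 ?_))
    rw [map_zero, h]; rfl
  -- coordinates
  have hcoord : ∀ {c c' u u' : U₀}, (c : V) + x • (u : V) = (c' : V) + x • (u' : V) →
      mk c = mk c' ∧ mk u = mk u' := by
    intro c c' u u' h
    have e : ((c : V) - c') = x • ((u' : V) - u) := by
      rw [smul_sub]; linear_combination (norm := abel) h
    have h1 : (c : V) - c' ∈ Z₀ := D.fix_eq_of_two hx (sub_mem c.2 c'.2)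
      (by rw [e, inv_smul_smul]; exact sub_mem u'.2 u.2)
    have h2 : (u' : V) - u ∈ Z₀ := by
      have h3 := h1 x⁻¹ trivial
      rw [e, inv_smul_smul, ← e] at h3
      rw [h3]; exact h1
    constructor
    · rw [← sub_eq_zero, ← map_sub, hmk]; exact h1
    · rw [eq_comm, ← sub_eq_zero, ← map_sub, hmk]; exact h2
  have hdec : ∀ v : V, ∃ c u : U₀, v = (c : V) + x • (u : V) := fun v => by
    obtain ⟨c, hc, u, hu, h⟩ := D.sup_eq_top hx v
    exact ⟨⟨c, hc⟩, ⟨u, hu⟩, h⟩
  choose dc du hdcu using hdec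
  let cx : V → (U₀ ⧸ N) × (U₀ ⧸ N) := fun v => (mk (dc v), f0 (mk (du v)))
  have hcx : ∀ c u : U₀, cx ((c : V) + x • (u : V)) = (mk c, f0 (mk u)) := fun c u => by
    obtain ⟨h1, h2⟩ := hcoord (hdcu ((c : V) + x • (u : V))).symm
    show (mk (dc _), f0 (mk (du _))) = _
    rw [h1, h2]
  have hcxadd : ∀ v w, cx (v + w) = cx v + cx w := by
    intro v w
    have : v + w = ((dc v + dc w : U₀) : V) + x • ((du v + du w : U₀) : V) := by
      rw [AddSubgroup.coe_add, AddSubgroup.coe_add, smul_add]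
      conv_lhs => rw [hdcu v, hdcu w]
      abel
    rw [this, hcx, map_add, map_add, map_add]
    rfl
  have hcx0 : ∀ v, cx v = 0 ↔ v ∈ Z₀ := by
    intro v
    constructor
    · intro h
      have h1 : mk (dc v) = 0 := congrArg Prod.fst h
      have h2 : mk (du v) = 0 := f0.map_eq_zero_iff.1 (congrArg Prod.snd h)
      rw [hdcu v, (((hmk _).1 h2) x trivial)]
      exact add_mem ((hmk _).1 h1) ((hmk _).1 h2)
    · intro h
      have e : v = ((⟨v, D.fixed_le h⟩ : U₀) : V) + x • ((0 : U₀) : V) := by simp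
      rw [e, hcx]
      simp [(hmk ⟨v, D.fixed_le h⟩).2 h]
  have hcA : ∀ (a : A) v, cx ((a : P) • v) = ((cx v).1 + φ a (cx v).2, (cx v).2) := by
    intro a v
    conv_lhs => rw [hdcu v, smul_add, (dc v).2 a a.2]
    have e : (a : P) • x • (du v : V) = (dispU x a (du v) : V) + x • (du v : V) := (sub_add_cancel _ _).symm
    rw [e, ← add_assoc, ← AddSubgroup.coe_add, hcx, map_add]
    refine Prod.ext ?_ rfl
    show mk (dc v) + mk (dispU x a (du v)) = mk (dc v) + disp x a (f0.symm (f0 (mk (du v))))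
    rw [f0.symm_apply_apply, hdisp]
  have hcB : ∀ (a : A) v, cx ((x * a * x⁻¹) • v) = ((cx v).1, (cx v).2 + γ a (cx v).1) := by
    intro a v
    have e : (x * a * x⁻¹) • v = (dc v : V) + x • ((dispU x⁻¹ a (dc v) + du v : U₀) : V) := by
      rw [AddSubgroup.coe_add]
      show _ = (dc v : V) + x • (((a : P) • x⁻¹ • (dc v : V) - x⁻¹ • (dc v : V)) + (du v : V))
      conv_lhs => rw [hdcu v]
      rw [smul_add, mul_smul, mul_smul, mul_smul, mul_smul, inv_smul_smul, (du v).2 a a.2, smul_add,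
        smul_sub, smul_inv_smul]
      abel
    rw [e, hcx, map_add, map_add]
    refine Prod.ext rfl ?_
    show f0 (mk (dispU x⁻¹ a (dc v))) + f0 (mk (du v)) = f0 (mk (du v)) + f0 (disp x⁻¹ a (mk (dc v)))
    rw [hdisp, add_comm]
  have hcU' : ∀ c : U₀, cx (c : V) = (mk c, 0) := fun c => by
    have := hcx c 0
    simpa using this
  -- lines through translates
  have hline : ∀ (a : A) (g : P), g⁻¹ * ((a : P) * x) ∈ M → ∀ c : U₀,
      (cx (g • (c : V))).1 = φ a (cx (g • (c : V))).2 := by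
    intro a g hg c
    have hu : (g⁻¹ * ((a : P) * x))⁻¹ • (c : V) ∈ U₀ := D.M_le_stab _ (inv_mem hg) _ c.2
    set u : U₀ := ⟨_, hu⟩
    have e : g • (c : V) = (a : P) • ((((0 : U₀)) : V) + x • (u : V)) := by
      rw [ZeroMemClass.coe_zero, zero_add, ← mul_smul]
      show _ = ((a : P) * x) • ((g⁻¹ * ((a : P) * x))⁻¹ • (c : V))
      rw [← mul_smul]
      congr 1
      group
    rw [e, hcA, hcx, map_zero]
    exact zero_add _
  have hBnot : ∀ a : A, a ≠ 1 → x * a * x⁻¹ ∉ M := fun a ha h => ha (Subtype.ext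
    (D.semiregular hx' a.2 (by rw [inv_inv]; exact h)))
  have hAnot : ∀ a : A, a ≠ 1 → x⁻¹ * a * x ∉ M := fun a ha h => ha (Subtype.ext (D.semiregular hx a.2 h))
  have hφγ : ∀ (a a' : A), (x * a' * x⁻¹)⁻¹ * ((a : P) * x) ∈ M → ∀ q, φ a (γ a' q) = q := by
    intro a a' h q
    obtain ⟨c, rfl⟩ := hmksurj q
    have := hline a _ h c
    rw [hcB, hcU'] at this
    simpa using this.symm
  have hγpartner : ∀ a' : A, a' ≠ 1 → ∃ a : A, a ≠ 1 ∧ ∀ q, φ a (γ a' q) = q := by
    intro a' ha'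
    obtain ⟨a, ha, h⟩ := D.meet hx hu₀ hu₀' (D.notMem_moves (hBnot a' ha') hu₀ hu₀')
    refine ⟨⟨a, ha⟩, fun h1 => ?_, hφγ ⟨a, ha⟩ a' h⟩
    have h2 := hφγ ⟨a, ha⟩ a' h (mk ⟨u₀, hu₀⟩)
    rw [h1, hφ1] at h2
    exact hu₀' ((hmk ⟨u₀, hu₀⟩).1 h2.symm)
  have hφpartner : ∀ a : A, a ≠ 1 → ∃ a' : A, ∀ q, φ a (γ a' q) = q := by
    intro a ha
    obtain ⟨a', ha', h⟩ := D.meet hx' hu₀ hu₀' (D.notMem_moves (hAnot a ha) hu₀ hu₀')
    refine ⟨⟨a', ha'⟩, hφγ a ⟨a', ha'⟩ ?_⟩
    have h2 := inv_mem h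
    convert h2 using 1
    group
  -- the Weyl element
  obtain ⟨b₀, hb₀⟩ := hφpartner a₀⁻¹ (inv_ne_one.2 ha₀)
  have hb₀' : ∀ q, γ b₀ q = -q := fun q => by
    have := hb₀ q
    rw [hφinv, hφone] at this
    exact neg_eq_iff_eq_neg.1 this
  set w : P := (a₀ : P) * (x * b₀ * x⁻¹) * (a₀ : P) with hw
  have hcw : ∀ v, cx (w • v) = ((cx v).2, -(cx v).1) := by
    intro v
    rw [hw, mul_smul, mul_smul, hcA, hcB, hcA, hb₀', hφone]
    refine Prod.ext ?_ ?_
    · show (cx v).1 + (cx v).2 + ((cx v).2 + -((cx v).1 + (cx v).2)) = (cx v).2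
      abel
    · show (cx v).2 + -((cx v).1 + (cx v).2) = -(cx v).1
      abel
  -- inverse closed
  let Φ : AddSubgroup (AddMonoid.End (U₀ ⧸ N)) :=
    { carrier := Set.range φ
      zero_mem' := ⟨1, hφ1⟩
      add_mem' := by rintro _ _ ⟨a, rfl⟩ ⟨b, rfl⟩; exact ⟨a * b, hφadd a b⟩
      neg_mem' := by rintro _ ⟨a, rfl⟩; exact ⟨a⁻¹, hφinv a⟩ }
  have hright : ∀ (g h : AddMonoid.End (U₀ ⧸ N)), (∀ q, g (h q) = q) → ∀ q, h (g q) = q := by
    intro g h hgh q
    have hs : Function.Surjective h :=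
      Finite.surjective_of_injective fun a b hab => by rw [← hgh a, hab, hgh]
    obtain ⟨r, rfl⟩ := hs q
    rw [hgh]
  have hclosed : InvClosed Φ := by
    refine ⟨⟨a₀, hφone⟩, ?_⟩
    rintro _ ⟨a, rfl⟩ hne
    have ha : a ≠ 1 := fun h => hne (by rw [h, hφ1])
    set g : P := w * ((a : P) * x) with hg
    have hgu : g • (u₀ : V) ∉ U₀ := by
      intro h
      have h1 : (cx (g • (u₀ : V))).2 = 0 := by
        rw [show g • (u₀ : V) = ((⟨_, h⟩ : U₀) : V) from rfl, hcU']
      have e : ((a : P) * x) • (u₀ : V) = (a : P) • ((((0 : U₀)) : V) + x • ((⟨u₀, hu₀⟩ : U₀) : V)) := by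
        rw [ZeroMemClass.coe_zero, zero_add, mul_smul]
      rw [hg, mul_smul, hcw, e, hcA, hcx, map_zero] at h1
      have h2 : φ a (f0 (mk ⟨u₀, hu₀⟩)) = 0 := by simpa using h1
      exact hu₀' ((hmk ⟨u₀, hu₀⟩).1 (f0.map_eq_zero_iff.1 ((hφbij a ha).1 (h2.trans (map_zero _).symm))))
    obtain ⟨a', ha', h⟩ := D.meet hx hu₀ hu₀' hgu
    have hkey : ∀ q, (φ ⟨a', ha'⟩⁻¹) (φ a q) = q := by
      intro q
      obtain ⟨c, hc⟩ : ∃ c : U₀, f0 (mk c) = q := by
        obtain ⟨c, hc⟩ := hmksurj (f0.symm q); exact ⟨c, by rw [hc, f0.apply_symm_apply]⟩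
      have h1 := hline ⟨a', ha'⟩ g h c
      have e : g • (c : V) = w • ((a : P) • ((((0 : U₀)) : V) + x • (c : V))) := by
        rw [ZeroMemClass.coe_zero, zero_add, hg, mul_smul w, mul_smul (a : P) x]
      rw [e, hcw, hcA, hcx, map_zero, zero_add, hc] at h1
      rw [hφinv]
      show -(φ ⟨a', ha'⟩ (φ a q)) = q
      have h2 : φ ⟨a', ha'⟩ (-(φ a q)) = q := h1.symm
      rwa [map_neg] at h2
    exact ⟨φ ⟨a', ha'⟩⁻¹, ⟨_, rfl⟩, AddMonoidHom.ext (hright _ _ hkey), AddMonoidHom.ext hkey⟩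
  -- the field
  let S : Subring (AddMonoid.End (U₀ ⧸ N)) :=
    { carrier := Φ
      one_mem' := hclosed.one_mem
      zero_mem' := Φ.zero_mem
      add_mem' := Φ.add_mem
      neg_mem' := Φ.neg_mem
      mul_mem' := fun ha hb => hclosed.mul_mem ha hb }
  have hfield : IsField S :=
    { exists_pair_ne := ⟨0, 1, fun h => by
        have : φ a₀ = 0 := hφone.trans (congrArg Subtype.val h).symm
        exact ha₀ (hφker a₀ this)⟩
      mul_comm := fun a b => Subtype.ext (hclosed.commute a a.2 b b.2)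
      mul_inv_cancel := fun {a} ha => by
        obtain ⟨b, hb, h1, -⟩ := hclosed.exists_inv a a.2 fun h => ha (Subtype.ext h)
        exact ⟨⟨b, hb⟩, Subtype.ext h1⟩ }
  letI : Field S := hfield.toField
  have hcardS : Nat.card S = Nat.card A := by
    refine (Nat.card_eq_of_bijective (fun a : A => (⟨φ a, ⟨a, rfl⟩⟩ : S)) ⟨fun a b h => ?_, ?_⟩).symm
    · have h' : φ a = φ b := congrArg Subtype.val h
      refine inv_mul_eq_one.1 (hφker _ ?_)
      rw [hφadd, hφinv, h', neg_add_cancel]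
    · rintro ⟨_, a, rfl⟩; exact ⟨a, rfl⟩
  let eS : Car (Nat.card S) ≃ S := (carEquiv _).trans (Finite.equivFin S).symm
  letI : Field (Car (Nat.card S)) := eS.field
  letI : Fintype (Car (Nat.card S)) := Fintype.ofEquiv _ (carEquiv (Nat.card S)).symm
  let re : Car (Nat.card S) ≃+* S := eS.ringEquiv
  -- the scalar identification
  set e₁ : U₀ ⧸ N := mk ⟨u₀, hu₀⟩ with he₁
  have he₁0 : e₁ ≠ 0 := fun h => hu₀' ((hmk _).1 h)
  let ε₀ : Car (Nat.card S) →+ U₀ ⧸ N := AddMonoidHom.mk'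
    (fun t => ((re t : S) : AddMonoid.End (U₀ ⧸ N)) e₁) fun s t => by rw [re.map_add]; rfl
  have hε : Function.Bijective ε₀ := by
    refine (Nat.bijective_iff_injective_and_card _).2 ⟨(injective_iff_map_eq_zero _).2 fun t ht => ?_, ?_⟩
    · by_contra hne
      obtain ⟨a, ha⟩ := (re t).2
      have ha1 : a ≠ 1 := fun h => hne (re.map_eq_zero_iff.1 (Subtype.ext (by rw [← ha, h, hφ1]; rfl)))
      refine he₁0 ((hφbij a ha1).1 ?_)
      rw [map_zero, ha]
      exact ht
    · rw [Nat.card_congr eS, hcardS, hcardq]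
  let ε := AddEquiv.ofBijective ε₀ hε
  have hεmul : ∀ (s : Car (Nat.card S)) (q : U₀ ⧸ N),
      ((re s : S) : AddMonoid.End (U₀ ⧸ N)) q = ε (s * ε.symm q) := by
    intro s q
    conv_lhs => rw [← ε.apply_symm_apply q]
    show _ = ((re (s * ε.symm q) : S) : AddMonoid.End (U₀ ⧸ N)) e₁
    rw [map_mul]
    rfl
  let ψ : V →+ (Fin 2 → Car (Nat.card S)) := AddMonoidHom.mk'
    (fun v => ![ε.symm (cx v).1, ε.symm (cx v).2]) fun v v' => by
      rw [hcxadd]
      ext i; fin_cases i <;> simp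
  have hψ : ∀ v, ψ v = ![ε.symm (cx v).1, ε.symm (cx v).2] := fun _ => rfl
  have hψsurj : Function.Surjective ψ := by
    intro r
    obtain ⟨c, hc⟩ := hmksurj (ε (r 0))
    obtain ⟨u, hu⟩ := hmksurj (f0.symm (ε (r 1)))
    refine ⟨(c : V) + x • (u : V), ?_⟩
    rw [hψ, hcx, hc, hu, f0.apply_symm_apply]
    ext i; fin_cases i <;> simp
  have hψ0 : ∀ v, ψ v = 0 ↔ v ∈ Z₀ := by
    intro v
    rw [← hcx0, hψ]
    constructor
    · intro h
      have h1 := congrFun h 0
      have h2 := congrFun h 1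
      exact Prod.ext (ε.symm.map_eq_zero_iff.1 (by simpa using h1))
        (ε.symm.map_eq_zero_iff.1 (by simpa using h2))
    · intro h
      rw [h]; ext i; fin_cases i <;> simp
  -- the representation
  let Rep : P → Matrix.SpecialLinearGroup (Fin 2) (Car (Nat.card S)) → Prop := fun g m =>
    ∀ v, ψ (g • v) = (m : Matrix (Fin 2) (Fin 2) (Car (Nat.card S))).mulVec (ψ v)
  have huniq : ∀ g m m', Rep g m → Rep g m' → m = m' := by
    intro g m m' h h'
    refine Subtype.ext (Matrix.ext_iff_mulVec.2 fun r => ?_)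
    obtain ⟨v, rfl⟩ := hψsurj r
    rw [← h, ← h']
  have hmul : ∀ g g' m m', Rep g m → Rep g' m' → Rep (g * g') (m * m') := by
    intro g g' m m' h h' v
    rw [mul_smul, h, h', Matrix.mulVec_mulVec]
    rfl
  have hrepA : ∀ a : A, Rep a (upU (re.symm ⟨φ a, ⟨a, rfl⟩⟩)) := by
    intro a v
    rw [hψ, hψ, hcA, upU_coe]
    have e : ε.symm (φ a (cx v).2) = re.symm ⟨φ a, ⟨a, rfl⟩⟩ * ε.symm (cx v).2 := by
      rw [AddEquiv.symm_apply_eq, ← hεmul, RingEquiv.apply_symm_apply]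
    ext i
    fin_cases i <;> simp [Matrix.mulVec, dotProduct, Fin.sum_univ_two, map_add, e]
  have hγmem : ∀ a' : A, γ a' ∈ Φ := by
    intro a'
    by_cases h : a' = 1
    · refine ⟨1, ?_⟩
      rw [hφ1, h]
      show 0 = f0.toAddMonoidHom.comp (disp x⁻¹ 1)
      rw [hd1]; exact AddMonoidHom.ext fun q => (map_zero f0).symm
    · obtain ⟨a, ha, hq⟩ := hγpartner a' h
      obtain ⟨b, hb, h1, h2⟩ := hclosed.exists_inv (φ a) ⟨a, rfl⟩ fun h0 => ha (hφker a h0)
      have : γ a' = b := AddMonoidHom.ext fun q => by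
        have h3 := congrArg (fun r : AddMonoid.End (U₀ ⧸ N) => r q) h1
        exact (hφbij a ha).1 ((hq q).trans h3.symm)
      exact this ▸ hb
  have hrepB : ∀ a : A, Rep (x * a * x⁻¹) (loU (re.symm ⟨γ a, hγmem a⟩)) := by
    intro a v
    rw [hψ, hψ, hcB, loU_coe]
    have e : ε.symm (γ a (cx v).1) = re.symm ⟨γ a, hγmem a⟩ * ε.symm (cx v).1 := by
      rw [AddEquiv.symm_apply_eq, ← hεmul, RingEquiv.apply_symm_apply]
    ext i
    fin_cases i
    · simp [Matrix.mulVec, dotProduct, Fin.sum_univ_two]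
    · simp [Matrix.mulVec, dotProduct, Fin.sum_univ_two, e]
      exact add_comm _ _
  let K : Subgroup P :=
    { carrier := {g | ∃ m, Rep g m}
      one_mem' := ⟨1, fun v => by rw [one_smul, Matrix.SpecialLinearGroup.coe_one, Matrix.one_mulVec]⟩
      mul_mem' := by rintro g g' ⟨m, hm⟩ ⟨m', hm'⟩; exact ⟨m * m', hmul g g' m m' hm hm'⟩
      inv_mem' := by
        rintro g ⟨m, hm⟩
        refine ⟨m⁻¹, fun v => ?_⟩
        conv_rhs => rw [← smul_inv_smul g v, hm]
        rw [Matrix.mulVec_mulVec, ← Matrix.SpecialLinearGroup.coe_mul, inv_mul_cancel,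
          Matrix.SpecialLinearGroup.coe_one, Matrix.one_mulVec] }
  have hK : K = ⊤ := D.gen x hx K (fun a ha => ⟨_, hrepA ⟨a, ha⟩⟩) fun a ha => ⟨_, hrepB ⟨a, ha⟩⟩
  have hKall : ∀ g, ∃ m, Rep g m := fun g => (hK ▸ Subgroup.mem_top g : g ∈ K)
  choose ρf hρf using hKall
  let ρ : P →* Matrix.SpecialLinearGroup (Fin 2) (Car (Nat.card S)) :=
    MonoidHom.mk' ρf fun g g' => huniq _ _ _ (hρf (g * g')) (hmul _ _ _ _ (hρf g) (hρf g'))
  have hρ : ∀ g, Rep g (ρ g) := hρf
  have hsurj : Function.Surjective ρ := by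
    rw [← MonoidHom.range_eq_top]
    refine eq_top_of_unipotents _ (fun t => ?_) fun t => ?_
    · obtain ⟨a, ha⟩ := (re t).2
      refine ⟨a, huniq _ _ _ (hρ a) ?_⟩
      have hr : re.symm ⟨φ a, ⟨a, rfl⟩⟩ = t := by
        rw [RingEquiv.symm_apply_eq]; exact Subtype.ext ha
      exact hr ▸ hrepA a
    · obtain ⟨a, ha⟩ := (re t).2
      by_cases ha1 : a = 1
      · refine ⟨1, ?_⟩
        have ht : t = 0 := re.map_eq_zero_iff.1 (Subtype.ext (by rw [← ha, ha1, hφ1]; rfl))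
        rw [map_one, ht]
        exact Subtype.ext (by rw [loU_coe, Matrix.SpecialLinearGroup.coe_one, Matrix.one_fin_two])
      · obtain ⟨b, ⟨c, hc⟩, h1, h2⟩ := hclosed.exists_inv (φ a) ⟨a, rfl⟩ fun h0 => ha1 (hφker a h0)
        have hc1 : c ≠ 1 := fun h => by
          rw [← hc, h, hφ1, mul_zero] at h1
          exact he₁0 (by simpa using (congrArg (fun r : AddMonoid.End (U₀ ⧸ N) => r e₁) h1).symm)
        obtain ⟨a', ha'⟩ := hφpartner c hc1
        have hγ : γ a' = φ a := AddMonoidHom.ext fun q => (hφbij c hc1).1 ((ha' q).trans (by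
          rw [hc]; exact (congrArg (fun r : AddMonoid.End (U₀ ⧸ N) => r q) h2).symm))
        refine ⟨x * a' * x⁻¹, huniq _ _ _ (hρ _) ?_⟩
        have hr : re.symm ⟨γ a', hγmem a'⟩ = t := by
          rw [RingEquiv.symm_apply_eq]; exact Subtype.ext (hγ.trans ha)
        exact hr ▸ hrepB a'
  have hinj : Function.Injective ρ := by
    rw [injective_iff_map_eq_one]
    intro g hg
    refine D.faith_mod g fun v => ?_
    rw [← hψ0, map_sub, hρ g, hg, Matrix.SpecialLinearGroup.coe_one, Matrix.one_mulVec, sub_self]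
  refine ⟨Car (Nat.card S), inferInstance, inferInstance, ?_,
    ⟨MulEquiv.ofBijective ρ ⟨hinj, hsurj⟩, ψ, hψsurj, hψ0, hρ⟩, ?_⟩
  · rw [← Nat.card_eq_fintype_card, Nat.card_congr eS, hcardS]
  · intro c hc
    obtain ⟨a, ha, h⟩ := D.displacement_surj hx hu₀ hu₀' hc
    exact ⟨a, ha, x • u₀, -(a • (x • u₀) - x • u₀ - c), neg_mem h, by abel⟩

end Setting

end Cfsg.Agent.LAE79
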